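import Cfsg.Agent.Lib.Root.J1d
import Cfsg.Agent.Lib.Core.Syl

set_option autoImplicit false

/-! # Counting lemmas for involutions -/

namespace Cfsg.Agent.Lib.Jk

open Subgroup Finset Cfsg.Agent.Lib.Core Cfsg.Agent.Lib.Root.J1

variable {G : Type*} [Group G]

theorem mc {y t : G} : y ∈ centralizer ({t} : Set G) ↔ y * t = t * y :=
  mem_centralizer_singleton_iff

theorem back {y g t : G} (e : y * (g * t * g⁻¹) = g * t * g⁻¹ * y) :
    g⁻¹ * y * g * t = t * (g⁻¹ * y * g) := by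
  calc g⁻¹ * y * g * t = g⁻¹ * (y * (g * t * g⁻¹)) * g := by group
    _ = _ := by rw [e]; group

theorem conj_inj {g a b : G} : g * a * g⁻¹ = g * b * g⁻¹ ↔ a = b := by simp

theorem card_cent_conj (g x : G) : Nat.card (centralizer ({g * x * g⁻¹} : Set G)) =
    Nat.card (centralizer ({x} : Set G)) :=
  Nat.card_congr ⟨fun y => ⟨g⁻¹ * y * g, mc.2 (back (mc.1 y.2))⟩,
    fun y => ⟨g * y * g⁻¹, mc.2 (comm_conj g (mc.1 y.2))⟩,
    fun y => Subtype.ext (by simp [mul_assoc]), fun y => Subtype.ext (by simp [mul_assoc])⟩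

theorem ncard_conj (g : G) (P Q : G → Prop) (h : ∀ y, P y ↔ Q (g * y * g⁻¹)) :
    {y | P y}.ncard = {y | Q y}.ncard := by
  rw [← Set.ncard_image_of_injective _ (MulAut.conj g).injective]
  congr 1
  ext y
  constructor
  · rintro ⟨z, hz, rfl⟩; exact (h z).1 hz
  · intro hy
    exact ⟨g⁻¹ * y * g, (h _).2 (by simpa [mul_assoc] using hy), by simp [mul_assoc]⟩

variable [Finite G]

theorem cosum (K : Subgroup G) [DecidablePred (· ∈ K)] (J : Finset G) (hJ : ∀ u ∈ J, u ∉ K) :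
    ∑ u ∈ J, (1 : ℚ) / (J.filter fun v => u⁻¹ * v ∈ K).card + 1 ≤ K.index := by
  classical
  have := Fintype.ofFinite (G ⧸ K)
  let q : G → G ⧸ K := QuotientGroup.mk
  have h1 : ∀ u ∈ J, (J.filter fun v => u⁻¹ * v ∈ K) = J.filter fun a => q a = q u :=
    fun u _ => filter_congr fun v _ => by rw [eq_comm]; exact QuotientGroup.eq.symm
  rw [sum_congr rfl fun u hu => by rw [h1 u hu],
    sum_comp (fun y => (1 : ℚ) / (J.filter fun a => q a = y).card) q,
    sum_congr rfl (g := fun _ => 1), sum_const, nsmul_eq_mul, mul_one]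
  · have : (J.image q).card + 1 ≤ K.index := by
      rw [index, Nat.card_eq_fintype_card, ← card_univ]
      refine card_lt_card ⟨subset_univ _, fun hc => ?_⟩
      obtain ⟨u, hu, e⟩ := mem_image.1 (hc (mem_univ (q 1)))
      exact hJ u hu (by simpa using QuotientGroup.eq.1 e)
    exact_mod_cast this
  · intro y hy
    obtain ⟨u, hu, rfl⟩ := mem_image.1 hy
    have : (J.filter fun a => q a = q u).card ≠ 0 := card_ne_zero.2 ⟨u, mem_filter.2 ⟨hu, rfl⟩⟩
    rw [nsmul_eq_mul, mul_one_div_cancel (by exact_mod_cast this)]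

theorem fpf_inv {K : Subgroup G} {u : G} (hu : u * u = 1) (hK : ∀ k ∈ K, u * k * u⁻¹ ∈ K)
    (hf : ∀ k ∈ K, k * u = u * k → k = 1) {k : G} (hk : k ∈ K) : u * k * u⁻¹ = k⁻¹ := by
  let f : K → K := fun a => ⟨(a : G)⁻¹ * (u * a * u⁻¹), mul_mem (inv_mem a.2) (hK _ a.2)⟩
  have : Function.Injective f := fun a b e => by
    have e1 : (a : G)⁻¹ * (u * a * u⁻¹) = (b : G)⁻¹ * (u * b * u⁻¹) := congrArg Subtype.val e
    refine Subtype.ext (mul_inv_eq_one.1 (hf _ (mul_mem a.2 (inv_mem b.2)) ?_))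
    calc (a : G) * (b : G)⁻¹ * u = a * ((b : G)⁻¹ * (u * b * u⁻¹)) * u * (b : G)⁻¹ := by group
      _ = _ := by rw [← e1]; group
  obtain ⟨a, ha⟩ := Finite.surjective_of_injective this ⟨k, hk⟩
  have e : k = (a : G)⁻¹ * (u * a * u⁻¹) := (congrArg Subtype.val ha).symm
  rw [e, inv_eq_of_mul_eq_one_right hu]
  calc u * ((a : G)⁻¹ * (u * a * u)) * u = u * (a : G)⁻¹ * u * a * (u * u) := by group
    _ = _ := by rw [hu, mul_inv_rev, mul_inv_rev, mul_inv_rev, inv_eq_of_mul_eq_one_right hu]; group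

theorem fpf_comm {K : Subgroup G} {u : G} (hu : u * u = 1) (hK : ∀ k ∈ K, u * k * u⁻¹ ∈ K)
    (hf : ∀ k ∈ K, k * u = u * k → k = 1) {a b : G} (ha : a ∈ K) (hb : b ∈ K) : a * b = b * a := by
  have := fpf_inv hu hK hf (mul_mem ha hb)
  rw [← conj_mul, fpf_inv hu hK hf ha, fpf_inv hu hK hf hb, ← mul_inv_rev] at this
  exact (inv_injective this).symm

omit [Finite G] in
theorem cent_inv {u x k : G} (hx : u * x * u⁻¹ = x⁻¹) (hk : k ∈ centralizer ({x} : Set G)) :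
    u * k * u⁻¹ ∈ centralizer ({x} : Set G) := by
  have := comm_conj u (mc.1 hk)
  rw [hx] at this
  exact mc.2 (Commute.inv_right_iff.1 this)

theorem ncard_inverters {u x : G} (hu : Iv u) (hx : u * x * u⁻¹ = x⁻¹) (hx2 : x⁻¹ ≠ x)
    (hf : ∀ k, k * x = x * k → k * u = u * k → k = 1) :
    {w | Iv w ∧ w * x * w⁻¹ = x⁻¹}.ncard = Nat.card (centralizer ({x} : Set G)) := by
  rw [card_eq_ncard, ← Set.ncard_image_of_injective (centralizer ({x} : Set G) : Set G)
    (mul_right_injective u)]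
  congr 1
  ext w
  constructor
  · rintro ⟨h1, h2⟩
    refine ⟨u⁻¹ * w, mc.2 (comm_of_conj ?_).symm, by simp⟩
    calc u⁻¹ * w * x * (u⁻¹ * w)⁻¹ = u⁻¹ * (w * x * w⁻¹) * u := by group
      _ = x := by rw [h2, ← hx]; group
  · rintro ⟨k, hk, rfl⟩
    have h1 : u * k * x * (u * k)⁻¹ = x⁻¹ := by
      rw [← hx, mul_assoc u k, mc.1 hk]; group
    refine ⟨⟨fun e => hx2 (by rw [← h1]; simp [show u * k = 1 from e]), ?_⟩, h1⟩
    have := fpf_inv hu.2 (fun k => cent_inv hx) (fun k hk => hf k (mc.1 hk)) hk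
    rw [hu.inv] at this
    show u * k * (u * k) = 1
    rw [← mul_assoc, this, inv_mul_cancel]

theorem ncard_inv_le (x : G) :
    {w | Iv w ∧ w * x * w⁻¹ = x⁻¹}.ncard ≤ Nat.card (centralizer ({x} : Set G)) := by
  rcases Set.eq_empty_or_nonempty {w | Iv w ∧ w * x * w⁻¹ = x⁻¹} with e | ⟨u, -, hx⟩
  · simp [e]
  rw [card_eq_ncard, ← Set.ncard_image_of_injective (centralizer ({x} : Set G) : Set G)
    (mul_right_injective u)]
  refine Set.ncard_le_ncard (fun w hw => ⟨u⁻¹ * w, mc.2 (comm_of_conj ?_).symm, by simp⟩)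
  calc u⁻¹ * w * x * (u⁻¹ * w)⁻¹ = u⁻¹ * (w * x * w⁻¹) * u := by group
    _ = x := by rw [hw.2, ← hx]; group

/-- normal 2-complement when a Sylow 2-subgroup has order 2 -/
theorem cyc2 {K : Subgroup G} {t : G} (ht : Iv t) (htK : t ∈ K)
    (h : ∀ d ∈ K, d * t = t * d → ∀ j, d ^ 2 ^ j = 1 → d = 1 ∨ d = t) :
    ∃ N : Subgroup G, (∀ k, k ∈ N ↔ k ∈ K ∧ Odd (orderOf k)) ∧ Nat.card K = 2 * Nat.card N := by
  let t' : K := ⟨t, htK⟩
  have ht' : orderOf t' = 2 := by rw [← Subgroup.orderOf_coe]; exact ht.orderOf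
  obtain ⟨P, hP⟩ := Invol.exists_sylow_mem_of_involution ht'
  have h1 : ∀ y ∈ (P : Subgroup K), y * t' = t' * y → y = 1 ∨ y = t' := fun y hy e => by
    obtain ⟨j, hj⟩ := pow_eq_one_of_isPGroup P.isPGroup' hy
    exact (h y y.2 (congrArg Subtype.val e) j (congrArg Subtype.val hj)).imp Subtype.ext Subtype.ext
  have h2 : (P : Subgroup K) = zpowers t' := by
    refine le_antisymm (fun y hy => ?_) (zpowers_le.2 hP)
    have hP1 : (P : Subgroup K) ≠ ⊥ := fun e =>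
      ht.1 (congrArg (Subtype.val : K → G) (mem_bot.1 (e ▸ (hP : t' ∈ (P : Subgroup K))) : t' = 1))
    obtain ⟨⟨z, hz⟩, hz0⟩ := ne_bot_iff_exists_ne_one.1 (inf_centralizer_ne_bot P.isPGroup'
      P.isPGroup' le_normalizer hP1)
    have hz1 : z ≠ 1 := fun e => hz0 (Subtype.ext e)
    have e := (h1 z hz.1 (mem_centralizer_iff.1 hz.2 t' hP).symm).resolve_left hz1
    rcases h1 y hy (e ▸ mem_centralizer_iff.1 hz.2 y hy) with e | e <;> rw [e]
    exacts [one_mem _, mem_zpowers _]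
  obtain ⟨N, hN, hc⟩ := Invol.exists_normal_complement_of_isCyclic_sylow_two P
    (h2 ▸ inferInstance)
  have hi : N.index = 2 := by rw [hc.symm.index_eq_card, h2, Nat.card_zpowers, ht']
  have ho : Odd (Nat.card N) := by
    rw [← hc.index_eq_card, ← Nat.not_even_iff_odd, even_iff_two_dvd]
    exact P.not_dvd_index
  refine ⟨N.map K.subtype, fun k => ⟨?_, fun ⟨h3, m, hm⟩ => ?_⟩, ?_⟩
  · rintro ⟨k, hk, rfl⟩
    exact ⟨k.2, by
      rw [subtype_apply, Subgroup.orderOf_coe]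
      exact ho.of_dvd_nat (N.orderOf_dvd_natCard hk)⟩
  · let k' : K := ⟨k, h3⟩
    refine ⟨(k' ^ 2) ^ (m + 1), pow_mem (sq_mem_of_index_two hi k') _, ?_⟩
    change (k ^ 2) ^ (m + 1) = k
    rw [← pow_mul, show 2 * (m + 1) = 2 * m + 1 + 1 by ring, pow_succ, ← hm, pow_orderOf_eq_one,
      one_mul]
  · rw [card_map_of_injective K.subtype_injective, ← hi, N.index_mul_card]

omit [Finite G] in
theorem iv_of_four {y : G} (h1 : y ≠ 1) (h4 : y * y * (y * y) = 1) :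
    ∃ z, Iv z ∧ ∀ x, x * y = y * x → x * z = z * x := by
  by_cases h2 : y * y = 1
  · exact ⟨y, ⟨h1, h2⟩, fun _ h => h⟩
  · exact ⟨y * y, ⟨h2, h4⟩, fun x h => (Commute.mul_right h h :)⟩

end Cfsg.Agent.Lib.Jk
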